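import Cfsg.Prelude.Def_SporadicB
import Cfsg.Agent.Eq.Def_SporadicB

set_option autoImplicit false

namespace CfsgLib.ThreeTranspositions

variable {G : Type*} [Group G] {E : Set G}

theorem mul_self (hE : Cfsg.IsThreeTranspositionSet E) {d : G} (hd : d ∈ E) : d * d = 1 := by
  have := pow_orderOf_eq_one d; rwa [hE.1 d hd, pow_two] at this

theorem inv_eq_self (hE : Cfsg.IsThreeTranspositionSet E) {d : G} (hd : d ∈ E) : d⁻¹ = d :=
  inv_eq_of_mul_eq_one_right (mul_self hE hd)

/-- Non-commuting members satisfy the braid relation. -/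
theorem braid (hE : Cfsg.IsThreeTranspositionSet E) {d e : G} (hd : d ∈ E) (he : e ∈ E)
    (h : ¬ Commute d e) : d * e * d = e * d * e := by
  have d' := inv_eq_self hE hd
  have e' := inv_eq_self hE he
  rcases hE.2 d hd e he with h2 | h3
  · exfalso; apply h
    rw [pow_two] at h2
    have := eq_inv_of_mul_eq_one_left h2
    rw [mul_inv_rev, d', e'] at this
    exact this
  · have : (d * e * d) * (e * d * e) = 1 := by
      simpa [pow_succ, mul_assoc] using h3
    have := eq_inv_of_mul_eq_one_left this
    simpa [mul_inv_rev, d', e', mul_assoc] using this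

theorem commute_mul_two (hE : Cfsg.IsThreeTranspositionSet E) {a b e : G} (ha : a ∈ E) (hb : b ∈ E)
    (he : e ∈ E) (hab : a ≠ b) (h : Commute e (a * b)) : Commute e a ∧ Commute e b := by
  have sb := mul_self hE hb
  have sa := mul_self hE ha
  have se := mul_self hE he
  by_cases hb' : Commute e b
  · refine ⟨?_, hb'⟩
    have := h.mul_right hb'
    rwa [mul_assoc, sb, mul_one] at this
  by_cases ha' : Commute e a
  · refine ⟨ha', ?_⟩
    have := ha'.mul_right h
    rwa [← mul_assoc, sa, one_mul] at this
  exfalso
  apply hab
  have h1 : e * (a * b) * e = a * b := by rw [h.eq, mul_assoc, se, mul_one]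
  have h2 : a * b = 1 := by
    calc a * b = e * (a * b) * e := h1.symm
      _ = (e * a * e) * (e * b * e) := by
        simp only [← mul_assoc]; rw [mul_assoc (e * a) e e, se, mul_one]
      _ = (a * e * a) * (b * e * b) := by rw [braid hE he ha ha', braid hE he hb hb']
      _ = a * (e * (a * b) * e) * b := by simp only [mul_assoc]
      _ = a * (a * b) * b := by rw [h1]
      _ = 1 := by rw [← mul_assoc, sa, one_mul, sb]
  calc a = a * (b * b) := by rw [sb, mul_one]
    _ = b := by rw [← mul_assoc, h2, one_mul]

theorem commute_mul_three (hE : Cfsg.IsThreeTranspositionSet E) {a b c e : G} (ha : a ∈ E)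
    (hb : b ∈ E) (hc : c ∈ E) (he : e ∈ E) (hab : a ≠ b) (hac : a ≠ c) (hbc : b ≠ c)
    (h₁ : Commute a b) (h₂ : Commute a c) (h₃ : Commute b c) (h : Commute e (a * b * c)) :
    Commute e a ∧ Commute e b ∧ Commute e c := by
  have sa := mul_self hE ha
  have sb := mul_self hE hb
  have sc := mul_self hE hc
  have se := mul_self hE he
  by_cases ha' : Commute e a
  · have h' := ha'.mul_right h
    rw [← mul_assoc, ← mul_assoc, sa, one_mul] at h'
    exact ⟨ha', commute_mul_two hE hb hc he hbc h'⟩
  by_cases hb' : Commute e b
  · have h' := hb'.mul_right h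
    rw [h₁.eq, mul_assoc, ← mul_assoc b b, sb, one_mul] at h'
    have := commute_mul_two hE ha hc he hac h'
    exact ⟨this.1, hb', this.2⟩
  by_cases hc' : Commute e c
  · have h' := h.mul_right hc'
    rw [mul_assoc, sc, mul_one] at h'
    have := commute_mul_two hE ha hb he hab h'
    exact ⟨this.1, this.2, hc'⟩
  exfalso
  have hX : e * (a * b * c) * e = a * b * c := by rw [h.eq, mul_assoc, se, mul_one]
  have Ba := braid hE he ha ha'
  have Bb := braid hE he hb hb'
  have Bc := braid hE he hc hc'
  have sX : (e * b * e) * (e * b * e) = 1 := by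
    calc (e * b * e) * (e * b * e) = e * b * (e * e) * b * e := by simp only [mul_assoc]
      _ = 1 := by rw [se, mul_one, mul_assoc e b b, sb, mul_one, se]
  have h1 : (a * e * a) * (e * b * e) * (c * e * c) = a * b * c := by
    rw [← Ba, ← Bc]
    calc (e * a * e) * (e * b * e) * (e * c * e)
        = e * a * (e * e) * b * (e * e) * c * e := by simp only [mul_assoc]
      _ = e * (a * b * c) * e := by rw [se]; simp only [mul_one, mul_assoc]
      _ = a * b * c := hX
  have h2 : e * (a * (e * b * e) * c) * e = b := by
    calc e * (a * (e * b * e) * c) * e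
        = (a * a) * e * a * (e * b * e) * c * e * (c * c) := by
          rw [sa, sc]; simp only [one_mul, mul_one, mul_assoc]
      _ = a * ((a * e * a) * (e * b * e) * (c * e * c)) * c := by simp only [mul_assoc]
      _ = a * (a * b * c) * c := by rw [h1]
      _ = b := by rw [← mul_assoc, ← mul_assoc, sa, one_mul, mul_assoc, sc, mul_one]
  have h3 : a * (e * b * e) * c = e * b * e := by
    calc a * (e * b * e) * c = (e * e) * (a * (e * b * e) * c) * (e * e) := by
          rw [se, one_mul, mul_one]
      _ = e * (e * (a * (e * b * e) * c) * e) * e := by simp only [mul_assoc]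
      _ = e * b * e := by rw [h2]
  have h4 : a = (e * b * e) * c * (e * b * e) := by
    calc a = a * (e * b * e) * (c * c) * (e * b * e) := by
          rw [sc, mul_one, mul_assoc, sX, mul_one]
      _ = (a * (e * b * e) * c) * c * (e * b * e) := by simp only [mul_assoc]
      _ = _ := by rw [h3]
  have h5 : a = b * c * e * (c * b) := by
    rw [h4, Bb]
    calc b * e * b * c * (b * e * b) = b * e * (b * c * b) * e * b := by simp only [mul_assoc]
      _ = b * e * c * e * b := by rw [h₃.eq, mul_assoc c b b, sb, mul_one]
      _ = b * (e * c * e) * b := by simp only [mul_assoc]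
      _ = b * c * e * (c * b) := by rw [Bc]; simp only [mul_assoc]
  apply ha'
  have h6 : e = a := by
    calc e = (c * b) * (b * c * e * (c * b)) * (b * c) := by
          simp only [← mul_assoc]
          rw [mul_assoc c b b, sb, mul_one, sc, one_mul, mul_assoc (e * c) b b, sb, mul_one,
            mul_assoc e c c, sc, mul_one]
      _ = (c * b) * a * (b * c) := by rw [← h5]
      _ = a * ((c * b) * (b * c)) := by rw [← (h₂.mul_right h₁).eq, mul_assoc]
      _ = a := by rw [mul_assoc, ← mul_assoc b b c, sb, one_mul, sc, mul_one]
  rw [h6]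

end CfsgLib.ThreeTranspositions
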